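import Cfsg.Agent.H169.RG.LRG
import Cfsg.Agent.H441.RG.NrmK
import Cfsg.Agent.H398.RG.Base
import Cfsg.Agent.GenExc.LeviQs

/-!
# S3509, box U: the pairs of conjugates of a fixed root group in a centraliser (helper169)

The frame of `H28/RG/Form.lean`, with the weak hypothesis `θ a ∈ Sx t ↔ a ∈ Sx t` instead of `α t = t`.

* `form_fixW` : the form of the elements commuting with `t` and fixed by `α`;
* `Xb α β = XL X β ⊓ Fix α`;
* `comm_P`, `comm_Q` : `PP0` centralises `Xb α β`, `QQ0` centralises `Xb α (-β)` for a top `β`;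
* `pairW` : `(X, c X c⁻¹)` generates a `p`-group or is `PP0`-conjugate to `(X, Y)`;
* `baseW` : helper398's `Base` for `K = PP0 ⊔ QQ0 ⊔ T^α`.
-/

set_option autoImplicit false
set_option linter.unusedSectionVars false

namespace Cfsg.Agent.H169.RG

open CoxeterSystem Cfsg.Agent.ChevalleyStructure.CoxeterGeom Cfsg.Agent.Tits.Roots Cfsg.Agent.Tits.Core
  Cfsg.Agent.Tits.RootComb Cfsg.Agent.Tits.Exchange Cfsg.Agent.Nodes.Reps Cfsg.Agent.Nodes.BNOf
  Cfsg.Agent.Nodes.StabComb Cfsg.Agent.Nodes.Bruhat Cfsg.Agent.Nodes.OppDec Cfsg.Agent.Nodes.LeviDec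
  Cfsg.Agent.Nodes.NormalForm Cfsg.Agent.Nodes.SubComb Cfsg.Agent.KFacts.RgdField
  Cfsg.Agent.BpExc.TorCent Cfsg.Agent.BpExc.Tow Cfsg.Agent.BpExc.Fr Cfsg.Agent.BpExc.Pair Cfsg.Agent.H28.RG
  Cfsg.Agent.H441.RG
open Cfsg.Agent.GenExc (CommOK)

/-! ### groups with an image of `SL₂(q)` -/

section SL

variable {Y : Type*} [Group Y]

open Matrix Cfsg.Agent.ChevalleyStructure.SL2Hom

theorem eq_one_of_pow_of_pgroup {p : ℕ} [Fact p.Prime] {g : Y} {n : ℕ} (hn : n.Coprime p) (hg : g ^ n = 1)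
    {Z : Subgroup Y} (hZ : IsPGroup p Z) (hm : g ∈ Z) : g = 1 := by
  obtain ⟨k, hk⟩ := hZ ⟨g, hm⟩
  have h1 : g ^ p ^ k = 1 := congrArg Subtype.val hk
  have h2 : orderOf g ∣ n := orderOf_dvd_of_pow_eq_one hg
  have h3 : orderOf g ∣ p ^ k := orderOf_dvd_of_pow_eq_one h1
  have h4 := Nat.Coprime.eq_one_of_dvd ((hn.pow_right k).coprime_dvd_left h2) h3
  exact orderOf_eq_one_iff.1 h4

variable {F : Type*} [Field F]

theorem sl_pow_four : (up (1 : F) * lo (-2)) ^ 4 = 1 := by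
  apply Subtype.ext
  have e : ((up (1 : F) * lo (-2) : Matrix.SpecialLinearGroup (Fin 2) F) : Matrix (Fin 2) (Fin 2) F) =
      !![-1, 1; -2, 1] := by
    change (!![1, 1; 0, 1] * !![1, 0; -2, 1] : Matrix (Fin 2) (Fin 2) F) = _
    ext i j
    fin_cases i <;> fin_cases j <;> simp [Matrix.mul_apply, Fin.sum_univ_two]
    · norm_num
  rw [Matrix.SpecialLinearGroup.coe_pow, e, Matrix.SpecialLinearGroup.coe_one]
  have e2 : (!![-1, 1; -2, 1] : Matrix (Fin 2) (Fin 2) F) ^ 2 = -1 := by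
    rw [sq]
    ext i j
    fin_cases i <;> fin_cases j <;> simp [Matrix.mul_apply, Fin.sum_univ_two]
    all_goals norm_num
  rw [show (4 : ℕ) = 2 * 2 from rfl, pow_mul, e2]
  simp

theorem sl_pow_three (h2 : (2 : F) = 0) : (up (1 : F) * lo 1) ^ 3 = 1 := by
  apply Subtype.ext
  have h11 : (1 : F) + 1 = 0 := by rw [← h2]; norm_num
  have e : ((up (1 : F) * lo 1 : Matrix.SpecialLinearGroup (Fin 2) F) : Matrix (Fin 2) (Fin 2) F) =
      !![0, 1; 1, 1] := by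
    change (!![1, 1; 0, 1] * !![1, 0; 1, 1] : Matrix (Fin 2) (Fin 2) F) = _
    ext i j
    fin_cases i <;> fin_cases j <;> simp [Matrix.mul_apply, Fin.sum_univ_two, h11]
  rw [Matrix.SpecialLinearGroup.coe_pow, e, Matrix.SpecialLinearGroup.coe_one]
  rw [pow_succ, sq]
  ext i j
  fin_cases i <;> fin_cases j <;> simp [Matrix.mul_apply, Fin.sum_univ_two, h11]

theorem sl_we (t : F) : (up (1 : F) * lo (-1) * up 1) * up t = lo (-t) * (up (1 : F) * lo (-1) * up 1) := by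
  apply Subtype.ext
  change (!![1, 1; 0, 1] * !![1, 0; -1, 1] * !![1, 1; 0, 1] * !![1, t; 0, 1] : Matrix (Fin 2) (Fin 2) F) =
    !![1, 0; -t, 1] * (!![1, 1; 0, 1] * !![1, 0; -1, 1] * !![1, 1; 0, 1])
  ext i j
  fin_cases i <;> fin_cases j <;> simp [Matrix.mul_apply, Fin.sum_univ_two]

theorem Img.conjY {q : ℕ} {X X' : Subgroup Y} (h : Img q X X') : ∃ k ∈ X ⊔ X', cjS k X = X' := by
  obtain ⟨F, _, _, φ, -, h1, h2, -⟩ := h
  refine ⟨φ (up 1 * lo (-1) * up 1), ?_, ?_⟩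
  · rw [map_mul, map_mul]
    exact mul_mem (mul_mem (Subgroup.mem_sup_left ((h1 _).2 ⟨_, rfl⟩)) (Subgroup.mem_sup_right ((h2 _).2 ⟨_, rfl⟩)))
      (Subgroup.mem_sup_left ((h1 _).2 ⟨_, rfl⟩))
  · ext y
    rw [h2]
    constructor
    · rintro ⟨x, hx, rfl⟩
      obtain ⟨t, rfl⟩ := (h1 x).1 hx
      refine ⟨-t, ?_⟩
      change φ (lo (-t)) = φ (up 1 * lo (-1) * up 1) * φ (up t) * (φ (up 1 * lo (-1) * up 1))⁻¹
      rw [← map_mul, sl_we, map_mul, mul_inv_cancel_right]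
    · rintro ⟨t, rfl⟩
      refine ⟨φ (up (-t)), (h1 _).2 ⟨_, rfl⟩, ?_⟩
      change φ (up 1 * lo (-1) * up 1) * φ (up (-t)) * (φ (up 1 * lo (-1) * up 1))⁻¹ = φ (lo t)
      rw [← map_mul, sl_we, map_mul, mul_inv_cancel_right, neg_neg]

theorem Img.ne_bot {q : ℕ} {X X' : Subgroup Y} (h : Img q X X') : X ≠ ⊥ := by
  obtain ⟨F, _, _, φ, -, h1, -, h3⟩ := h
  intro h0
  have h4 : φ (up 1) ∈ X := (h1 _).2 ⟨_, rfl⟩
  rw [h0, Subgroup.mem_bot] at h4
  exact one_ne_zero (h3 _ h4)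

theorem Img.card {q : ℕ} {X X' : Subgroup Y} (h : Img q X X') : Nat.card X = q := by
  obtain ⟨F, _, _, φ, hq, h1, -, h3⟩ := h
  rw [← hq, ← Nat.card_eq_fintype_card]
  symm
  refine Nat.card_congr (Equiv.ofBijective (fun t : F => (⟨φ (up t), (h1 _).2 ⟨t, rfl⟩⟩ : X)) ⟨fun a b hab => ?_, ?_⟩)
  · have e1 : φ (up a) = φ (up b) := congrArg Subtype.val hab
    have e2 : φ (up (a - b)) = 1 := by
      have e3 : up (a - b) * up b = up a := by
        apply Subtype.ext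
        change (!![1, a - b; 0, 1] * !![1, b; 0, 1] : Matrix (Fin 2) (Fin 2) F) = !![1, a; 0, 1]
        ext i j
        fin_cases i <;> fin_cases j <;> simp [Matrix.mul_apply, Fin.sum_univ_two]
      have e4 : φ (up (a - b)) * φ (up b) = φ (up b) := by rw [← map_mul, e3, e1]
      exact mul_eq_right.1 e4
    exact sub_eq_zero.1 (h3 _ e2)
  · rintro ⟨x, hx⟩
    obtain ⟨t, ht⟩ := (h1 x).1 hx
    exact ⟨t, Subtype.ext ht⟩

theorem Img.npg {p : ℕ} [hp : Fact p.Prime] {q e : ℕ} (hq : q = p ^ e) {X X' : Subgroup Y} (h : Img q X X')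
    (hd : ∀ x ∈ X, x ∈ X' → x = 1) : ¬ IsPGroup p ↥(X ⊔ X') := by
  obtain ⟨F, _, _, φ, hF, h1, h2, h3⟩ := h
  intro hP
  have key : ∀ s : F, ∀ n : ℕ, n.Coprime p → (up (1 : F) * lo s) ^ n = 1 → False := by
    intro s n hn hs
    have hm : φ (up 1 * lo s) ∈ X ⊔ X' := by
      rw [map_mul]
      exact mul_mem (Subgroup.mem_sup_left ((h1 _).2 ⟨_, rfl⟩)) (Subgroup.mem_sup_right ((h2 _).2 ⟨_, rfl⟩))
    have h5 := eq_one_of_pow_of_pgroup hn (by rw [← map_pow, hs, map_one]) hP hm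
    rw [map_mul] at h5
    have h6 : φ (up 1) = (φ (lo s))⁻¹ := eq_inv_of_mul_eq_one_left h5
    have h7 : φ (up 1) ∈ X' := by
      rw [h6]
      exact X'.inv_mem ((h2 _).2 ⟨_, rfl⟩)
    exact one_ne_zero (h3 _ (hd _ ((h1 _).2 ⟨_, rfl⟩) h7))
  rcases hp.out.eq_two_or_odd' with h4 | h4
  · subst h4
    refine key 1 3 (by decide) (sl_pow_three ?_)
    have h5 : ((Fintype.card F : ℕ) : F) = 0 := FiniteField.cast_card_eq_zero F
    rw [hF, hq, Nat.cast_pow] at h5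
    by_cases he : e = 0
    · subst he
      rw [pow_zero] at h5
      exact absurd h5 one_ne_zero
    · have h7 := (pow_eq_zero_iff he).1 h5
      exact_mod_cast h7
  · refine key (-2) 4 ?_ sl_pow_four
    have h5 : Nat.Coprime 2 p := (Nat.coprime_two_left).2 h4
    have h6 := h5.pow_left 2
    exact h6

end SL

/-! ### the frame -/

section Frame

variable {I W Y : Type*} [Fintype I] [DecidableEq I] [Group W] [Finite W] [Group Y] {M : CoxeterMatrix I}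
  {cs : CoxeterSystem M W} {A : I → I → ℤ} {h : IsCartan M A} {p : ℕ}
  {J : Type*} [Preorder J] {T : J → Subgroup Y} {n : I → Y} {X : J → (I → ℤ) → Subgroup Y}
  {F : Type*} [Field F] {xx : (I → ℤ) → F → Y} {χ : (I → ℤ) → Y → F}
  (H : Tow cs h p T n X) (C : Coords cs h (TL T) n (XL X) xx χ)
  {α : MulAut Y} {θ : (I → ℤ) ≃+ (I → ℤ)} (Fα : Fr cs h (TL T) (XL X) α θ)

/-- the data, weak version: `θ` stabilises `Sx t` and its positive part -/
structure CW (cs : CoxeterSystem M W) (h : IsCartan M A) (T : J → Subgroup Y) (X : J → (I → ℤ) → Subgroup Y)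
    (χ : (I → ℤ) → Y → F) (θ : (I → ℤ) ≃+ (I → ℤ)) (t : Y) : Prop where
  hG : GG cs h (TL T) (XL X) = ⊤
  hsep : ∀ a, IsRoot cs h a → ∃ s ∈ TL T, ∀ u ∈ XL X a, u * s = s * u → u = 1
  hA : ChAdd cs h (TL T) χ
  hcom : CommOK cs h (XL X)
  hab : ∀ a ∈ TL T, ∀ b ∈ TL T, a * b = b * a
  ht : t ∈ TL T
  hS : ∀ a, θ a ∈ Sx cs h χ t ↔ a ∈ Sx cs h χ t
  hpos : ∀ a ∈ Sx cs h χ t, 0 ≤ a → 0 ≤ θ a

/-- the fixed points of `α` in a root group -/
def Xb (X : J → (I → ℤ) → Subgroup Y) (α : MulAut Y) (β : I → ℤ) : Subgroup Y := XL X β ⊓ Cfsg.fixedSubgroup α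

theorem mem_Xb {β : I → ℤ} {y : Y} : y ∈ Xb X α β ↔ y ∈ XL X β ∧ α y = y := Iff.rfl

/-- a `θ`-fixed top of `Sx t` -/
structure Top (cs : CoxeterSystem M W) (h : IsCartan M A) (χ : (I → ℤ) → Y → F) (θ : (I → ℤ) ≃+ (I → ℤ)) (t : Y)
    (β : I → ℤ) : Prop where
  mem : β ∈ Sx cs h χ t
  pos : 0 ≤ β
  fix : θ β = β
  top : ∀ a ∈ Sx cs h χ t, 0 ≤ a → ¬ IsRoot cs h (β + a)

theorem ne_neg_of_pos {a b : I → ℤ} (ha : IsRoot cs h a) (h0 : 0 ≤ a) (h1 : 0 ≤ b) : a ≠ -b := by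
  rintro rfl
  exact ha.not_pos_neg h0 (neg_nonpos.2 h1)

include H in
/-- two root groups of non-opposite roots generate a `p`-group -/
theorem isPGroup_XL {a b : I → ℤ} (ha : IsRoot cs h a) (hb : IsRoot cs h b) (hab : a ≠ -b) :
    IsPGroup p ↥(XL X a ⊔ XL X b) := by
  have hmono : Monotone fun j => X j a ⊔ X j b := fun i j hij => sup_le_sup (H.monoX a hij) (H.monoX b hij)
  have hle : XL X a ⊔ XL X b ≤ ⨆ j, (X j a ⊔ X j b) := by
    refine sup_le ?_ ?_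
    · exact iSup_le fun j => le_trans le_sup_left (le_iSup (fun j => X j a ⊔ X j b) j)
    · exact iSup_le fun j => le_trans le_sup_right (le_iSup (fun j => X j a ⊔ X j b) j)
  rintro ⟨y, hy⟩
  obtain ⟨j, hj⟩ := (H.mem_iSup hmono).1 (hle hy)
  obtain ⟨k, hk⟩ := Cfsg.Agent.Nodes.PosPair.isPGroup_pair (H.rgd j) ha hb hab
    ⟨y, Subgroup.mem_sup_left hj⟩
  have hk' : y ^ p ^ k = 1 := congrArg Subtype.val hk
  exact ⟨k, Subtype.ext hk'⟩

theorem cjS_Xb_of_eq {k : Y} (hk : α k = k) {a b : I → ℤ} (he : cj k (XL X a) = XL X b) :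
    cjS k (Xb X α a) = Xb X α b := by
  ext y
  rw [mem_cjS, mem_Xb, mem_Xb]
  have h1 : k⁻¹ * y * k ∈ XL X a ↔ y ∈ XL X b := by
    rw [← he]
    constructor
    · intro hy
      have := (conj_mem_cj (g := k)).2 hy
      have e : k * (k⁻¹ * y * k) * k⁻¹ = y := by group
      rwa [e] at this
    · intro hy
      have e : k * (k⁻¹ * y * k) * k⁻¹ = y := by group
      rw [← e] at hy
      exact conj_mem_cj.1 hy
  have h2 : α (k⁻¹ * y * k) = k⁻¹ * y * k ↔ α y = y := by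
    rw [map_mul, map_mul, map_inv, hk]
    constructor
    · intro h
      exact mul_left_cancel (mul_right_cancel h)
    · intro h
      rw [h]
  rw [h1, h2]

variable {t : Y} (Dt : CW cs h T X χ θ t) {β : I → ℤ} (Bβ : Top cs h χ θ t β)

include Dt Bβ

theorem comm_UpW {u x : Y} (hu : u ∈ Up cs h X χ t) (hx : x ∈ XL X β) : u * x = x * u := by
  have h1 : Up cs h X χ t ≤ Subgroup.centralizer {x} := by
    refine RGD.Sup_le fun a ha y hy => ?_
    rw [Subgroup.mem_centralizer_singleton_iff]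
    refine Dt.hcom a β ha.1.1 Bβ.mem.1 (ne_neg_of_pos ha.1.1 ha.2 Bβ.pos) ?_ y hy x hx
    rw [add_comm]
    exact Bβ.top a ha.1 ha.2
  exact Subgroup.mem_centralizer_singleton_iff.1 (h1 hu)

include C in
theorem comm_UnW {u x : Y} (hu : u ∈ Un cs h X χ t) (hx : x ∈ XL X (-β)) : u * x = x * u := by
  have h1 : Un cs h X χ t ≤ Subgroup.centralizer {x} := by
    refine RGD.Sup_le fun a ha y hy => ?_
    rw [Subgroup.mem_centralizer_singleton_iff]
    have h2 : -a ∈ Sx cs h χ t := chi_neg C Dt.ht Dt.hA ha.1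
    refine Dt.hcom a (-β) ha.1.1 Bβ.mem.1.neg ?_ ?_ y hy x hx
    · intro h3
      rw [_root_.neg_neg] at h3
      rw [h3] at ha
      exact Bβ.mem.1.not_pos_neg Bβ.pos ha.2
    · intro h3
      refine Bβ.top (-a) h2 (neg_nonneg.2 ha.2) ?_
      have e : β + -a = -(a + -β) := by abel
      rw [e]
      exact h3.neg
  exact Subgroup.mem_centralizer_singleton_iff.1 (h1 hu)

omit Bβ

include C H Fα in
theorem form_fixW {c : Y} (hc : c * t = t * c) (hαc : α c = c) :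
    ∃ w, ∃ u ∈ Up cs h X χ t, α u = u ∧ ∃ k, Rp cs H.nsys w k ∧ k * t = t * k ∧ α k = k ∧
      ∃ v ∈ Up cs h X χ t, α v = v ∧ k * v * k⁻¹ ∈ Un cs h X χ t ∧ c = u * k * v := by
  have aUp : ∀ {u : Y}, u ∈ Up cs h X χ t → α u ∈ Up cs h X χ t := by
    intro u hu
    have h1 : Up cs h X χ t ≤ (Up cs h X χ t).comap α.toMonoidHom := by
      refine RGD.Sup_le fun a ha => ?_
      intro y hy
      exact RGD.le_Sup (S := SP cs h χ t) ⟨(Dt.hS a).2 ha.1, Dt.hpos a ha.1 ha.2⟩ ((Fα.map a ha.1.1 y).2 hy)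
    exact h1 hu
  have aUn : ∀ {u : Y}, u ∈ Un cs h X χ t → α u ∈ Un cs h X χ t := by
    intro u hu
    have h1 : Un cs h X χ t ≤ (Un cs h X χ t).comap α.toMonoidHom := by
      refine RGD.Sup_le fun a ha => ?_
      intro y hy
      exact RGD.le_Sup (S := SN cs h χ t) ⟨(Dt.hS a).2 ha.1, theta_neg C Dt.ht Dt.hpos Dt.hA ha.1 ha.2⟩
        ((Fα.map a ha.1.1 y).2 hy)
    exact h1 hu
  obtain ⟨w, u, hu, k, hk, hkt, v, hv, hkv, rfl⟩ := form H C Dt.hG Dt.ht hc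
  obtain ⟨w', hk'⟩ := Cfsg.Agent.BpExc.NChev.rp_fr H Dt.hG Dt.hsep Fα hk
  have hkv' : α k * α v * (α k)⁻¹ ∈ Un cs h X χ t := by
    rw [← map_mul, ← map_inv, ← map_mul]
    exact aUn hkv
  obtain ⟨-, h1, h2, h3⟩ := form_unique H (Up_le (aUp hu)) (Up_le hu) hk' hk
    (Up_le (aUp hv)) (Un_le hkv') (Up_le hv) (Un_le hkv) (by
      rw [← map_mul, ← map_mul, hαc])
  exact ⟨w, u, hu, h1, k, hk, hkt, h2, v, hv, h3, hkv, rfl⟩

include C H Fα Bβ in
/-- **The pairs of conjugates of the fixed root group of a top.** -/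
theorem pairW {c : Y} (hc : c * t = t * c) (hαc : α c = c) :
    IsPGroup p ↥(Xb X α β ⊔ cjS c (Xb X α β)) ∨
      ∃ u ∈ PP0 cs h X χ α t, cjS c (Xb X α β) = cjS u (Xb X α (-β)) := by
  obtain ⟨w, u, hu, hαu, k, hk, hkt, hαk, v, hv, hαv, -, rfl⟩ := form_fixW H C Fα Dt hc hαc
  have h1 : cjS v (Xb X α β) = Xb X α β := cjS_eq_of_comm fun x hx => comm_UpW Dt Bβ hv hx.1
  have h2 : cjS u (Xb X α β) = Xb X α β := cjS_eq_of_comm fun x hx => comm_UpW Dt Bβ hu hx.1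
  have h3 : cjS k (Xb X α β) = Xb X α (rep cs h w β) := cjS_Xb_of_eq hαk (H.conj_rp hk Bβ.mem.1)
  have h4 : cjS (u * k * v) (Xb X α β) = cjS u (Xb X α (rep cs h w β)) := by
    rw [cjS_mul, h1, cjS_mul, h3]
  rw [h4]
  by_cases hw : rep cs h w β = -β
  · right
    exact ⟨u, ⟨hu, hαu⟩, by rw [hw]⟩
  · left
    have h5 : Xb X α β ⊔ cjS u (Xb X α (rep cs h w β)) = cjS u (Xb X α β ⊔ Xb X α (rep cs h w β)) := by
      rw [cjS_sup, h2]
    rw [h5]
    apply cjS_pgroup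
    have hne : β ≠ -rep cs h w β := by
      intro h6
      apply hw
      exact (neg_eq_iff_eq_neg.2 h6).symm
    exact (isPGroup_XL H Bβ.mem.1 (Bβ.mem.1.act w) hne).to_le
      (sup_le (le_trans inf_le_left le_sup_left) (le_trans inf_le_left le_sup_right))

/-- the group `K = ⟨P, Q, T^α⟩` -/
def KW (cs : CoxeterSystem M W) (h : IsCartan M A) (T : J → Subgroup Y) (X : J → (I → ℤ) → Subgroup Y)
    (χ : (I → ℤ) → Y → F) (α : MulAut Y) (t : Y) : Subgroup Y :=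
  PP0 cs h X χ α t ⊔ QQ0 cs h X χ α t ⊔ (TL T ⊓ Cfsg.fixedSubgroup α)

include C in
theorem KW_le : KW cs h T X χ α t ≤ fixC α t := by
  refine sup_le (sup_le ?_ ?_) ?_
  · exact fun _ hx => mem_fixC.2 ⟨hx.2, comm_Up C Dt.ht hx.1⟩
  · exact fun _ hx => mem_fixC.2 ⟨hx.2, comm_Un C Dt.ht hx.1⟩
  · exact fun _ hx => mem_fixC.2 ⟨hx.2, Dt.hab _ hx.1 _ Dt.ht⟩

include Bβ in
theorem Xb_le : Xb X α β ≤ PP0 cs h X χ α t := fun _ hx =>
  ⟨RGD.le_Sup (S := SP cs h χ t) ⟨Bβ.mem, Bβ.pos⟩ hx.1, hx.2⟩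

include C Bβ in
theorem Xb_neg_le : Xb X α (-β) ≤ QQ0 cs h X χ α t := fun _ hx =>
  ⟨RGD.le_Sup (S := SN cs h χ t) ⟨chi_neg C Dt.ht Dt.hA Bβ.mem, neg_nonpos.2 Bβ.pos⟩ hx.1, hx.2⟩

include H Bβ in
/-- the fixed points of the torus normalise the fixed points of a root group -/
theorem torus_Xb {s : Y} (hs : s ∈ TL T ⊓ Cfsg.fixedSubgroup α) {b : I → ℤ} (hb : IsRoot cs h b) {x : Y}
    (hx : x ∈ Xb X α b) : s * x * s⁻¹ ∈ Xb X α b := by
  have h1 : cjS s (Xb X α b) = Xb X α b := cjS_Xb_of_eq hs.2 (H.cj_T hs.1 hb)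
  rw [← h1]
  exact ⟨x, hx, rfl⟩

include H C Bβ in
theorem Xb_disj {x : Y} (hx : x ∈ Xb X α β) (hx' : x ∈ Xb X α (-β)) : x = 1 :=
  eq_one_of_pos_neg H (Up_le (Xb_le Dt Bβ hx).1) (Un_le (Xb_neg_le C Dt Bβ hx').1)

include C H Fα Bβ in
/-- **The base pair** of helper398 -/
theorem baseW [Fact p.Prime] {q e : ℕ} (hq : q = p ^ e) (hI : Img q (Xb X α β) (Xb X α (-β)))
    (hcore : Cfsg.pCore p ↥(KW cs h T X χ α t) = ⊥) :
    H398.RG.Base p (KW cs h T X χ α t) (Xb X α β) (Xb X α (-β)) (PP0 cs h X χ α t) (QQ0 cs h X χ α t)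
      (TL T ⊓ Cfsg.fixedSubgroup α) where
  leX := (Xb_le Dt Bβ).trans (le_sup_left.trans le_sup_left)
  leP := le_sup_left.trans le_sup_left
  leQ := le_sup_right.trans le_sup_left
  leT := le_sup_right
  gen := le_rfl
  hP := fun g hg x hx => by
    rw [comm_UpW Dt Bβ hg.1 hx.1, mul_inv_cancel_right]
    exact hx
  hQ := fun g hg x hx => by
    rw [comm_UnW C Dt Bβ hg.1 hx.1, mul_inv_cancel_right]
    exact hx
  hT := fun g hg x hx => torus_Xb H Dt Bβ hg Bβ.mem.1 hx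
  pgrp := (isPGroup_XL H Bβ.mem.1 Bβ.mem.1 (ne_neg_of_pos Bβ.mem.1 Bβ.pos Bβ.pos)).to_le
    (inf_le_left.trans le_sup_left)
  ne := hI.ne_bot
  npg := hI.npg hq fun _ hx hx' => Xb_disj H C Dt Bβ hx hx'
  conjY := by
    obtain ⟨k, hk, e⟩ := hI.conjY
    refine ⟨k, ?_, e⟩
    exact (sup_le ((Xb_le Dt Bβ).trans (le_sup_left.trans le_sup_left))
      ((Xb_neg_le C Dt Bβ).trans (le_sup_right.trans le_sup_left))) hk
  pair := by
    intro g hg
    obtain ⟨h1, h2⟩ := mem_fixC.1 (KW_le C Dt hg)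
    rcases pairW H C Fα Dt Bβ h2 h1 with h3 | ⟨u, hu, h3⟩
    · exact Or.inl h3
    · right
      refine ⟨u⁻¹, Subgroup.inv_mem _ ((le_sup_left.trans le_sup_left : PP0 cs h X χ α t ≤ KW cs h T X χ α t) hu),
        ?_, ?_⟩
      · exact cjS_eq_of_comm fun x hx => comm_UpW Dt Bβ (inv_mem hu.1) hx.1
      · change cjS u⁻¹ (cjS g (Xb X α β)) = Xb X α (-β)
        rw [h3, ← cjS_mul, inv_mul_cancel, cjS_one]
  core := hcore

end Frame

end Cfsg.Agent.H169.RG
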