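import Cfsg.Agent.H169.RG.ImgFr
import Cfsg.Agent.H441.RG.Weak
import Cfsg.Agent.H441.RG.NormM
import Cfsg.Agent.H884.NA.Quot
import Cfsg.Agent.H873.RG.Defs

/-!
# S3509, box U: the quasisimple subgroup generated by a fixed long root group of a centraliser (helper169)

`d : Wk.DFr hp cs r e α θ t` (weak frame), `β` a `θ`-fixed top of `Sx t`, `K = KT = ⟨P, Q, T^α⟩`, `X = X_β^α`, `Y = X_{-β}^α`,
`M = MK K X`.

* `baseF` : helper398's `Base`;
* `cond_big` : `Cond` for `r ^ e ≥ 4`;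
* `core_M` : `X, Y ≤ M ≤ K ≤ N(M)`, `M` perfect, `NSA (M / Z(M))`.
-/

set_option autoImplicit false
set_option linter.unusedSectionVars false

namespace Cfsg.Agent.H169.RG

open CoxeterSystem Cfsg Cfsg.Lie Cfsg.Lie.ChevalleyDatum
open Cfsg.Agent.ChevalleyStructure Cfsg.Agent.ChevalleyStructure.Elts Cfsg.Agent.ChevalleyStructure.CoxeterGeom
  Cfsg.Agent.ChevalleyStructure.CoxeterGeomTypes Cfsg.Agent.ChevalleyStructure.NPerm
open Cfsg.Agent.Tits.Roots Cfsg.Agent.Tits.Core Cfsg.Agent.Nodes Cfsg.Agent.Nodes.Reps Cfsg.Agent.Nodes.BNOf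
  Cfsg.Agent.Nodes.RGDChev Cfsg.Agent.Nodes.Bruhat Cfsg.Agent.Nodes.NormalForm
open Cfsg.Agent.KFacts.RgdField Cfsg.Agent.KFacts.RgdChevCoord
open Cfsg.Agent.BpExc Cfsg.Agent.BpExc.TorCent Cfsg.Agent.BpExc.TorChev Cfsg.Agent.BpExc.Tow
  Cfsg.Agent.BpExc.TowChev Cfsg.Agent.BpExc.Fr Cfsg.Agent.BpExc.Pair Cfsg.Agent.BpExc.LangFr Cfsg.Agent.GpExc.Field
  Cfsg.Agent.BpExc.NInst Cfsg.Agent.BpExc.NChev
open Cfsg.Agent.ChevalleyStructure.SL2Hom (up lo)
open Cfsg.Agent.H469.Exc Cfsg.Agent.H316.U6 Cfsg.Agent.H28.RG Cfsg.Agent.H441.RG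
open Cfsg.Agent.H884.NA (PairQ ExcAlt not_alt_quot)
open Cfsg.Agent.H398.RG (MK Cond Base)

universe u v

/-! ### abstract part -/

section Abs

variable {Y : Type*} [Group Y]

theorem Img.comm {q : ℕ} {X X' : Subgroup Y} (h : Img q X X') : ∀ x ∈ X, ∀ y ∈ X, x * y = y * x := by
  obtain ⟨F, _, _, φ, -, h1, -, -⟩ := h
  intro x hx y hy
  obtain ⟨a, rfl⟩ := (h1 x).1 hx
  obtain ⟨b, rfl⟩ := (h1 y).1 hy
  rw [← map_mul, ← map_mul, ← H655.Mono.up_add, ← H655.Mono.up_add, add_comm]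

theorem Img.pow {p q e : ℕ} [Fact p.Prime] (hq : q = p ^ e) {X X' : Subgroup Y} (h : Img q X X') :
    ∀ x ∈ X, x ^ p = 1 := by
  obtain ⟨F, _, _, φ, hF, h1, -, -⟩ := h
  intro x hx
  obtain ⟨a, rfl⟩ := (h1 x).1 hx
  have h5 : ((Fintype.card F : ℕ) : F) = 0 := FiniteField.cast_card_eq_zero F
  rw [hF, hq, Nat.cast_pow] at h5
  have he : e ≠ 0 := by
    rintro rfl
    rw [pow_zero] at h5
    exact one_ne_zero h5
  have h6 : (p : F) = 0 := (pow_eq_zero_iff he).1 h5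
  rw [← map_pow, H655.Mono.up_pow, h6, zero_mul, H655.Mono.up_zero, map_one]

/-- the pair property in a subgroup -/
theorem pairQ_subgroupOf {p q : ℕ} {M Z : Subgroup Y} (hZ : Z ≤ M) (h : PairQ p q Z) : PairQ p q (Z.subgroupOf M) := by
  rcases h with h | ⟨F, _, _, hF, φ, hφ, hk⟩
  · exact Or.inl (h.comap_subtype)
  · right
    have hm : ∀ A, φ A ∈ M := fun A => hZ (by rw [← hφ]; exact ⟨A, rfl⟩)
    refine ⟨F, _, _, hF, φ.codRestrict M hm, ?_, ?_⟩
    · ext ⟨y, hy⟩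
      rw [Subgroup.mem_subgroupOf, ← hφ]
      constructor
      · rintro ⟨A, hA⟩
        exact ⟨A, congrArg Subtype.val hA⟩
      · rintro ⟨A, hA⟩
        exact ⟨A, Subtype.ext hA⟩
    · intro A hA
      exact hk (congrArg Subtype.val hA)

end Abs

section Conc

variable {D : ChevalleyDatum} {l : ℕ} {M : CoxeterMatrix (Fin l)} {hp : IsType D l M} {r : ℕ} [hr : Fact r.Prime]
  {e : ℕ} {α : MulAut ↥(D.group (KK r))} {θ : (Fin l → ℤ) ≃+ (Fin l → ℤ)} {t : ↥(D.group (KK r))}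

/-- fixed points in a root group -/
noncomputable abbrev XF (l : ℕ) (α : MulAut ↥(D.group (KK r))) (β : Fin l → ℤ) : Subgroup ↥(D.group (KK r)) :=
  XX D l (KK r) β ⊓ fixedSubgroup α

-- the group `K = ⟨P, Q, T^α⟩` is `KT` of `H441/RG/NormM`; it has the name `H169.RG.KT`, too
export Cfsg.Agent.H441.RG (KT)

variable (d : Wk.DFr hp M.toCoxeterSystem r e α θ t) {β : Fin l → ℤ}
  (Bβ : Top M.toCoxeterSystem hp.isCartan (ch hp) θ t β)

include d in
theorem cwD : CW M.toCoxeterSystem hp.isCartan (Tj hp (k := KK r)) (Xj hp (k := KK r)) (ch hp) θ t :=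
  cwK d.mem d.stab d.pos

include d Bβ

theorem imgK_XF : ImgK (r ^ e) (XF l α β) (XF l α (-β)) :=
  imgK_fr (hp := hp) d.he d.frob d.fr Bβ.mem.1 Bβ.fix

theorem baseF [Finite ↥(fixC α t)] : Base r (KT hp α t) (XF l α β) (XF l α (-β)) (PK hp M.toCoxeterSystem α t)
    (QK hp M.toCoxeterSystem α t) (TK α) := by
  have := finite_W hp M.toCoxeterSystem
  have h1 := baseW (tow (k := KK r) hp M.toCoxeterSystem (locFin r) r) coordK (d.frTL (locFin r)) (cwD d) Bβ
    (q := r ^ e) (e := e) rfl (by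
      rw [Xb_eq, Xb_eq]
      exact (imgK_XF d Bβ).img) (by
      show pCore r ↥(KW M.toCoxeterSystem hp.isCartan (Tj hp (k := KK r)) (Xj hp (k := KK r)) (ch hp) α t) = ⊥
      exact d.pCore_KK0 (locFin r))
  rw [KW, Xb_eq, Xb_eq, PP0_eq (locFin r), QQ0_eq (locFin r), TL_eq hp (locFin r)] at h1
  exact h1

omit Bβ in
theorem KT_le : KT hp α t ≤ fixC α t := d.KT_le (locFin r)

/-- the pairs of conjugates -/
theorem pairF {c : ↥(D.group (KK r))} (hc : c ∈ fixC α t) :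
    IsPGroup r ↥(XF l α β ⊔ cjS c (XF l α β)) ∨
      ∃ u ∈ fixC α t, cjS u (XF l α β) = XF l α β ∧ cjS c (XF l α β) = cjS u (XF l α (-β)) := by
  have := finite_W hp M.toCoxeterSystem
  obtain ⟨h1, h2⟩ := mem_fixC.1 hc
  have H := tow (k := KK r) hp M.toCoxeterSystem (locFin r) r
  have h3 := pairW H coordK (d.frTL (locFin r)) (cwD d) Bβ h2 h1
  rw [Xb_eq, Xb_eq] at h3
  rcases h3 with h3 | ⟨u, hu, h3⟩
  · exact Or.inl h3
  · right
    refine ⟨u, ?_, ?_, h3⟩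
    · rw [PP0_eq (locFin r)] at hu
      exact d.PK_le (locFin r) hu
    · refine cjS_eq_of_comm fun x hx => comm_UpW (cwD d) Bβ hu.1 ?_
      rw [XL_eq hp (locFin r)]
      exact hx.1

/-- the pairs of conjugates, helper884's form -/
theorem pairQ {c : ↥(D.group (KK r))} (hc : c ∈ fixC α t) :
    PairQ r (r ^ e) (XF l α β ⊔ cjS c (XF l α β)) := by
  rcases pairF d Bβ hc with h | ⟨u, -, h1, h2⟩
  · exact Or.inl h
  · right
    obtain ⟨F, i1, i2, φ, h3, h4, h5⟩ := ((imgK_XF d Bβ).conj u).range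
    rw [h1, ← h2] at h4
    exact ⟨F, i1, i2, h3, φ, h4, h5⟩

theorem XF_disj {x : ↥(D.group (KK r))} (hx : x ∈ XF l α β) (hx' : x ∈ XF l α (-β)) : x = 1 := by
  have := finite_W hp M.toCoxeterSystem
  exact Xb_disj (α := α) (tow (k := KK r) hp M.toCoxeterSystem (locFin r) r) coordK (cwD d) Bβ
    (by rw [Xb_eq]; exact hx) (by rw [Xb_eq]; exact hx')

/-- **Not alternating modulo the centre.** -/
theorem nsa_M [Finite ↥(fixC α t)] (hc : Cond (KT hp α t) (XF l α β) (XF l α (-β)))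
    (hna : ∀ j, ExcAlt (r ^ e) j → ¬ Nonempty ((↥(MK (KT hp α t) (XF l α β)) ⧸
      Subgroup.center ↥(MK (KT hp α t) (XF l α β))) ≃* alternatingGroup (Fin j))) :
    H873.RG.NSA (↥(MK (KT hp α t) (XF l α β)) ⧸ Subgroup.center ↥(MK (KT hp α t) (XF l α β))) := by
  have hfin : Finite ↥(KT hp α t) := Finite.of_injective _ (Subgroup.inclusion_injective (KT_le d))
  obtain ⟨hXM, hYM, hMK, hKn, hperf, hs, hcm⟩ := (baseF d Bβ).all hc
  have hI := imgK_XF d Bβ
  have hI' := hI.img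
  refine ⟨hs, hcm, ?_⟩
  rintro ⟨j, hj, ⟨ee⟩⟩
  by_cases hex : ExcAlt (r ^ e) j
  · exact hna j hex ⟨ee⟩
  obtain ⟨k, hk, hkX⟩ := hI'.conjY
  refine not_alt_quot (p := r) hj hex ee (QuotientGroup.mk' (Subgroup.center _)) (QuotientGroup.mk'_surjective _)
    (by rw [QuotientGroup.ker_mk']) ((XF l α β).subgroupOf _) ?_ ?_ ?_ ?_ ?_ ?_
  · intro x hx h1
    have h2 : x ∈ Subgroup.center ↥(MK (KT hp α t) (XF l α β)) := (QuotientGroup.eq_one_iff x).1 h1
    have hkM : k ∈ MK (KT hp α t) (XF l α β) := (sup_le hXM hYM) hk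
    have h3 := congrArg Subtype.val (Subgroup.mem_center_iff.1 h2 ⟨k, hkM⟩)
    have h4 : k * (x : ↥(D.group (KK r))) = x * k := h3
    have h5 : (x : ↥(D.group (KK r))) ∈ XF l α (-β) := by
      rw [← hkX, mem_cjS]
      have e1 : k⁻¹ * (x : ↥(D.group (KK r))) * k = x := by
        rw [mul_assoc, ← h4, inv_mul_cancel_left]
      rw [e1]
      exact hx
    exact Subtype.ext (XF_disj d Bβ hx h5)
  · rw [Nat.card_congr (Subgroup.subgroupOfEquivOfLe hXM).toEquiv]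
    exact hI'.card
  · intro h1
    apply hI'.ne_bot
    rw [Subgroup.subgroupOf_eq_bot] at h1
    rw [eq_bot_iff]
    intro x hx
    exact Subgroup.mem_bot.2 (Subgroup.disjoint_def.1 h1 hx (hXM hx))
  · intro x hx y hy
    exact Subtype.ext (hI'.comm x hx y hy)
  · intro x hx
    exact Subtype.ext (hI'.pow rfl x hx)
  · intro c
    have hcC : (c : ↥(D.group (KK r))) ∈ fixC α t := KT_le d (hMK c.2)
    have h1 := pairQ_subgroupOf (M := MK (KT hp α t) (XF l α β)) (Z := XF l α β ⊔ cjS (c : ↥(D.group (KK r))) (XF l α β))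
      (sup_le hXM (by
        rintro _ ⟨x, hx, rfl⟩
        exact mul_mem (mul_mem c.2 (hXM hx)) (inv_mem c.2))) (pairQ d Bβ hcC)
    have h2 : (XF l α β).subgroupOf (MK (KT hp α t) (XF l α β)) ⊔
        ((XF l α β).subgroupOf (MK (KT hp α t) (XF l α β))).map (MulAut.conj c).toMonoidHom =
        (XF l α β ⊔ cjS (c : ↥(D.group (KK r))) (XF l α β)).subgroupOf (MK (KT hp α t) (XF l α β)) := by
      have h3 : ((XF l α β).subgroupOf (MK (KT hp α t) (XF l α β))).map (MulAut.conj c).toMonoidHom =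
          (cjS (c : ↥(D.group (KK r))) (XF l α β)).subgroupOf (MK (KT hp α t) (XF l α β)) := by
        ext ⟨y, hy⟩
        rw [Subgroup.mem_subgroupOf]
        constructor
        · rintro ⟨x, hx, hxy⟩
          exact ⟨x, hx, congrArg Subtype.val hxy⟩
        · rintro ⟨x, hx, hxy⟩
          exact ⟨⟨x, hXM hx⟩, hx, Subtype.ext hxy⟩
      rw [h3]
      apply Subgroup.map_injective (Subgroup.subtype_injective (MK (KT hp α t) (XF l α β)))
      have h4 : cjS (c : ↥(D.group (KK r))) (XF l α β) ≤ MK (KT hp α t) (XF l α β) := by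
        rintro _ ⟨x, hx, rfl⟩
        exact mul_mem (mul_mem c.2 (hXM hx)) (inv_mem c.2)
      rw [Subgroup.map_sup, Subgroup.map_subgroupOf_eq_of_le hXM, Subgroup.map_subgroupOf_eq_of_le h4,
        Subgroup.map_subgroupOf_eq_of_le (sup_le hXM h4)]
    rw [h2]
    exact h1

/-- `Cond` for `r ^ e ≥ 4` -/
theorem cond_big [Finite ↥(fixC α t)] (h4 : 4 ≤ r ^ e) : Cond (KT hp α t) (XF l α β) (XF l α (-β)) := by
  have hfin : Finite ↥(KT hp α t) := Finite.of_injective _ (Subgroup.inclusion_injective (KT_le d))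
  have hB := baseF d Bβ
  refine H398.RG.cond_of_perfect (p := r) hB.leX ?_ hB.pgrp ?_
  · obtain ⟨k, hk, hY⟩ := hB.conjY
    rw [← hY]
    exact H398.RG.cj_le_MK hk
  · obtain ⟨F, _, _, φ, hF, hφ, -⟩ := (imgK_XF d Bβ).range
    rw [← hφ, MonoidHom.range_eq_map, ← Subgroup.map_commutator]
    have h5 : commutator (Matrix.SpecialLinearGroup (Fin 2) F) = ⊤ :=
      Cfsg.Agent.TwoFusion.SLTwoFacts.commutator_eq_top (by rw [hF]; omega)
    rw [commutator_def] at h5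
    rw [h5]

end Conc

end Cfsg.Agent.H169.RG
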